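import Mathlib
import Cfsg.Prelude.Def_Blocks
import Cfsg.Agent.H649.Transport
import Cfsg.Agent.H657.BrauerFeit
import Cfsg.Agent.S0908
import Cfsg.Agent.H123.BlockRed
import Cfsg.Agent.H500.ExtraCube

/-!
# Heights and the index of the centre of a defect group: general facts (S4578, helper107)

* `Concl p H`: the conclusion of S4578 for one group and one prime; `Concl.of_equiv`: invariance;
* `Good p B D χ`: the conclusion for one block, one defect group, one character;
* `good_of_le_two`: blocks of defect at most two;
* `good_of_isCyclic`: cyclic defect groups;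
* `good_of_card_center`: defect at least three and centre of order `p`.
-/

set_option autoImplicit false

namespace Cfsg.Agent.H107.AltBlk

open Subgroup Cfsg

universe u v

/-- the conclusion for one block, one defect group, one character -/
def Good {H : Type*} [Group H] (p : ℕ) (B : Set (IrrCharacter H)) (D : Subgroup H) (χ : IrrCharacter H) : Prop :=
  blockHeight p B (χ : H → ℂ) ≤ ((Subgroup.center D).index).factorization p ∧
    (blockHeight p B (χ : H → ℂ) = ((Subgroup.center D).index).factorization p ↔ IsMulCommutative D)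

/-- the conclusion of S4578 for one group and one prime -/
def Concl (p : ℕ) (H : Type*) [Group H] [Finite H] : Prop :=
  ∀ (M : Ideal AlgInt) (_ : IsPModular p M) (B : Set (IrrCharacter H)) (_ : IsPBlock M B)
    (D : Subgroup H) (_ : IsDefectGroup p M B D) (χ : IrrCharacter H) (_ : χ ∈ B),
    blockHeight p B (χ : H → ℂ) ≤ ((Subgroup.center D).index).factorization p ∧
      (blockHeight p B (χ : H → ℂ) = ((Subgroup.center D).index).factorization p ↔
        IsMulCommutative D)

theorem isMulCommutative_congr {A : Type*} {B : Type*} [Group A] [Group B] (e : A ≃* B)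
    (h : IsMulCommutative A) : IsMulCommutative B := by
  constructor; constructor
  intro a b
  obtain ⟨x, rfl⟩ := e.surjective a
  obtain ⟨y, rfl⟩ := e.surjective b
  rw [← map_mul, ← map_mul, h.is_comm.comm]

theorem index_center_congr {A : Type*} {B : Type*} [Group A] [Group B] [Finite A] (e : A ≃* B) :
    (center A).index = (center B).index := by
  have : Finite B := Finite.of_equiv A e.toEquiv
  have h1 := (center A).card_mul_index
  have h2 := (center B).card_mul_index
  rw [← Nat.card_congr (centerCongr e).toEquiv, ← Nat.card_congr e.toEquiv, ← h1] at h2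
  exact (Nat.eq_of_mul_eq_mul_left Nat.card_pos h2).symm

theorem Concl.of_equiv {p : ℕ} {H : Type u} {K : Type v} [Group H] [Finite H] [Group K] [Finite K]
    (h : Concl p H) (f : H ≃* K) : Concl p K := by
  intro M hM B hB D hD χ hχ
  have h1 := h M hM (H649.blkMap f.symm B) (H649.isPBlock_blkMap hB) (D.map f.symm.toMonoidHom)
    (H649.isDefectGroup_blkMap hD) (H649.irrMap f.symm χ) (H649.irrMap_mem_blkMap.2 hχ)
  rw [H649.blockHeight_blkMap] at h1
  have e : D ≃* (D.map f.symm.toMonoidHom : Subgroup H) := D.equivMapOfInjective _ f.symm.injective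
  rw [← index_center_congr e] at h1
  refine ⟨h1.1, h1.2.trans ⟨isMulCommutative_congr e.symm, isMulCommutative_congr e⟩⟩

section
variable {H : Type u} [Group H] [Finite H] {p : ℕ} [hp : Fact p.Prime] {M : Ideal AlgInt}
  {B : Set (IrrCharacter H)} {D : Subgroup H} {χ : IrrCharacter H}

omit [Finite H] hp in
theorem good_of_comm (hc : IsMulCommutative D) (h0 : blockHeight p B (χ : H → ℂ) = 0) : Good p B D χ := by
  have h1 : center D = ⊤ := by
    rw [eq_top_iff]
    intro x _
    rw [mem_center_iff]
    intro y
    exact hc.is_comm.comm y x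
  have h2 : ((Subgroup.center D).index).factorization p = 0 := by
    rw [h1, index_top, Nat.factorization_one]; rfl
  exact ⟨by rw [h0]; exact Nat.zero_le _, ⟨fun _ => hc, fun _ => by rw [h0, h2]⟩⟩

omit [Finite H] hp in
theorem good_of_not_comm (hc : ¬ IsMulCommutative D)
    (h0 : blockHeight p B (χ : H → ℂ) < ((Subgroup.center D).index).factorization p) : Good p B D χ :=
  ⟨h0.le, ⟨fun h => absurd h h0.ne, fun h => absurd h hc⟩⟩

/-- Brauer-Feit -/
theorem height_le (hM : IsPModular p M) (hB : IsPBlock M B) (hχ : χ ∈ B) :
    blockHeight p B (χ : H → ℂ) = 0 ∨ blockHeight p B (χ : H → ℂ) + 2 ≤ blockDefect p B := by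
  have := Fintype.ofFinite H
  rcases Nat.eq_zero_or_pos (blockHeight p B (χ : H → ℂ)) with h | h
  · exact Or.inl h
  · exact Or.inr (H657.BrauerFeit.height_add_two_le hM hB hχ h)

theorem comm_of_card_le {T : Type*} [Group T] {d : ℕ} (hd : d ≤ 2) (hT : Nat.card T = p ^ d) :
    IsMulCommutative T := by
  interval_cases d
  · rw [pow_zero] at hT
    have h6 : Subsingleton T := (Nat.card_eq_one_iff_unique.1 hT).1
    exact ⟨⟨fun a b => Subsingleton.elim _ _⟩⟩
  · rw [pow_one] at hT
    have h6 : IsCyclic T := isCyclic_of_prime_card (p := p) hT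
    exact ⟨⟨fun a b => mul_comm' a b⟩⟩
  · exact IsPGroup.isMulCommutative_of_card_eq_prime_sq hT

theorem good_of_le_two (hM : IsPModular p M) (hB : IsPBlock M B) (hD : IsDefectGroup p M B D) (hχ : χ ∈ B)
    (hd : blockDefect p B ≤ 2) : Good p B D χ := by
  refine good_of_comm (comm_of_card_le hd (S0908.result p M hM B hB D hD)) ?_
  rcases height_le hM hB hχ with h | h
  · exact h
  · omega

theorem good_of_isCyclic (hM : IsPModular p M) (hB : IsPBlock M B) (hD : IsDefectGroup p M B D) (hχ : χ ∈ B)
    (hc : IsCyclic D) : Good p B D χ := by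
  rcases Nat.lt_or_ge 2 (blockDefect p B) with h | h
  · refine good_of_comm ⟨⟨fun a b => mul_comm' a b⟩⟩ ?_
    exact H123.BlockRed.height_eq_zero hM hB hD hc (n := blockDefect p B) (by omega)
      (S0908.result p M hM B hB D hD) hχ
  · exact good_of_le_two hM hB hD hχ h

theorem good_of_card_center (hM : IsPModular p M) (hB : IsPBlock M B) (hD : IsDefectGroup p M B D) (hχ : χ ∈ B)
    (hd : 3 ≤ blockDefect p B) (hc : Nat.card (center D) = p) : Good p B D χ := by
  have hp' := hp.out
  have h1 := S0908.result p M hM B hB D hD
  have h2 := (center D).card_mul_index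
  obtain ⟨k, hk⟩ := Nat.exists_eq_add_of_le hd
  rw [hc, h1, hk, show 3 + k = (2 + k) + 1 by ring, pow_succ, mul_comm] at h2
  have h3 : (center D).index = p ^ (2 + k) := Nat.eq_of_mul_eq_mul_right hp'.pos h2
  have h4 : ((center D).index).factorization p = 2 + k := by
    rw [h3, hp'.factorization_pow]; simp
  refine good_of_not_comm ?_ ?_
  · intro h
    have h5 : center D = ⊤ := by
      rw [eq_top_iff]
      intro x _
      rw [mem_center_iff]
      intro y
      exact h.is_comm.comm y x
    rw [h5, index_top] at h3
    have h6 : 1 < p ^ (2 + k) := Nat.one_lt_pow (by omega) hp'.one_lt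
    omega
  · rw [h4]
    rcases height_le hM hB hχ with h | h
    · omega
    · omega

/-- groups with a small `p`-part -/
theorem concl_of_factorization_le (h : (Nat.card H).factorization p ≤ 2) : Concl p H := by
  intro M hM B hB D hD χ hχ
  refine good_of_le_two hM hB hD hχ ?_
  exact (Nat.sub_le _ _).trans h

/-- the noncommutative case of order `p ^ 3` -/
theorem good_of_three (hM : IsPModular p M) (hB : IsPBlock M B) (hD : IsDefectGroup p M B D) (hχ : χ ∈ B)
    (hd : blockDefect p B = 3) (hc : ¬ IsMulCommutative D) : Good p B D χ := by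
  refine good_of_card_center hM hB hD hχ hd.ge ?_
  have h1 := S0908.result p M hM B hB D hD
  rw [hd] at h1
  exact H500.card_center_cube h1 fun h => hc ⟨⟨h⟩⟩

end

end Cfsg.Agent.H107.AltBlk
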